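import Cfsg.Agent.Lib.J1.TC
import Cfsg.Agent.Lib.SL2Card

/-!
# A presentation of `PSL₃(4)` by six involutions
-/

set_option autoImplicit false

namespace CfsgLib.L34

open TC Subgroup Matrix

def rels : List (List ℕ × List ℕ) :=
  [([1, 2], [2, 1]),
   ([3, 4], [4, 3]),
   ([4, 1, 4, 1], [3, 2, 3, 2]),
   ([4, 2, 4, 2], [3, 1, 3, 1, 3, 2, 3, 2]),
   ([3, 1, 3, 1], [5, 1, 5]),
   ([3, 2, 3, 2], [5, 2, 5]),
   ([5, 3, 5], [3, 5, 3]),
   ([5, 4, 5, 3, 4, 5, 4, 3], [4, 5, 4, 5, 3, 4, 5, 4]),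
   ([5, 4, 5, 3, 4, 5, 4, 4], [3, 4, 5, 4, 5, 3, 4, 5, 4]),
   ([3, 1, 3, 1], [6, 3, 6]),
   ([3, 2, 3, 2], [6, 4, 6]),
   ([6, 1, 6], [1, 6, 1]),
   ([5, 4, 5, 3, 4, 5, 4], [6, 2, 6, 1, 2, 6, 2]),
   ([5, 6, 5], [6, 5, 6])]

def relW : List (List ℕ) := rels.map fun p => p.1 ++ p.2.reverse

theorem check1 : check relW [] [1, 2, 3, 4] [
    [36, 40, 44, 48, 72, 49153, 76, 80, 108, 112, 132, 136, 144, 82177, 164, 168, 204, 208, 228,
    232, 240, 131329, 260, 264, 292, 296, 304, 164097, 324, 328, 360, 196609, 364, 368, 396,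
    400, 420, 424, 456, 245761, 460, 464, 492, 496, 516, 520, 606749, 672005, 528, 278785, 548,
    705025, 524545, 688929, 552, 584, 311297, 737801, 639233, 588, 592, 620, 426497, 787233,
    606737, 770565, 624, 426241, 557581, 655881, 802821, 541205, 644, 648, 574237, 680, 360449,
    557589, 684, 868881, 869129, 868877, 491525, 475945, 410373, 819997, 524825, 835585, 836105,
    688, 393473, 508441, 606209, 716, 410401, 459265, 589829, 720, 459009, 639493, 744, 393217,
    541193, 748, 475673, 573701, 840, 442369, 475913, 491777, 880, 639749, 1288, 671745, 819721,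
    983297, 1292, 754201, 852229, 950273, 1384, 720897, 754441, 770305, 1424, 918277, 934145,
    983041]] 0x1fffffffffffffffe 64 = true := by
  decide +kernel

theorem check2 : check relW [1, 2, 3, 4] [1, 2, 3, 4, 5] [
    [52, 33813, 34069, 76, 50181, 50437, 50689, 80, 66053, 66309, 112, 65793, 82437, 82449, 148,
    99349, 99605, 180, 115733, 115989, 204, 132101, 132357, 208, 147973, 148229, 149249, 236,
    132609, 164869, 165125, 240, 180741, 180997, 272, 147713, 197125, 197137, 336, 180481,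
    213509, 213521, 215041, 372, 230421, 230677, 230917, 231173, 404, 246805, 247061, 247301,
    247557]] 0xfffe 15 = true := by
  decide +kernel

theorem check3 : check relW [1, 2, 3, 4, 5] [1, 2, 3, 4, 5, 6] [
    [56, 35093, 35349, 68, 51465, 51969, 72, 68105, 49673, 66313, 84, 82965, 83221, 85253, 104,
    65537, 68653, 98825, 98837, 116, 115733, 115989, 148, 132117, 132373, 172, 148993, 176, 212,
    181269, 181525, 236, 148485, 149777, 197649, 198929, 240, 268, 148741, 166417, 215569,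
    230673, 272, 164357, 246533, 248577, 304, 164097, 166933, 183557, 328, 212993, 364, 197893,
    229377, 279041, 295953, 400, 213249, 248853, 262681, 297241, 436, 279809, 295173, 328197,
    330265, 464, 246017, 280065, 280857, 311813, 327685]] 0x3ffffe 21 = true := by
  decide +kernel

theorem card_le_of_rels {K : Type*} [Group K] [Finite K] {g : ℕ → K} (hg : ∀ j, g j * g j = 1)
    (h7 : g 7 = 1) (hR : ∀ p ∈ rels, ev g p.1 = ev g p.2) :
    Nat.card (closure (g '' {j | j ∈ [1, 2, 3, 4, 5, 6]})) ≤ 20160 := by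
  have h : ∀ w ∈ relW, ev g w = 1 := fun w hw => by
    obtain ⟨p, hp, rfl⟩ := List.mem_map.mp hw
    rw [ev_append, ev_reverse hg, hR p hp, mul_inv_cancel]
  have h1 := card_le hg h7 h (H := ⊥) (by simp) check1
  have h2 := card_le hg h7 h (H := closure (g '' {j | j ∈ [1, 2, 3, 4]}))
    (fun j hj => subset_closure ⟨j, hj, rfl⟩) check2
  have h3 := card_le hg h7 h (H := closure (g '' {j | j ∈ [1, 2, 3, 4, 5]}))
    (fun j hj => subset_closure ⟨j, hj, rfl⟩) check3
  rw [card_bot] at h1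
  omega

abbrev F4 : Type := QuadraticAlgebra (ZMod 2) 1 1

theorem factF4 : Fact (∀ r : ZMod 2, r ^ 2 ≠ 1 + 1 * r) := ⟨by decide⟩

attribute [local instance] factF4

@[reducible] def finF4 : Fintype F4 := Fintype.ofEquiv _ (QuadraticAlgebra.equivProd 1 1).symm

attribute [local instance] finF4

theorem card_F4 : Fintype.card F4 = 4 := by
  rw [Fintype.ofEquiv_card, Fintype.card_prod, ZMod.card]

def om : F4 := ⟨0, 1⟩

def gM (j : ℕ) : Matrix (Fin 3) (Fin 3) F4 :=
  [1, !![1, 0, 0; 0, 1, 1; 0, 0, 1], !![1, 0, 0; 0, 1, om; 0, 0, 1], !![1, 1, 0; 0, 1, 0; 0, 0, 1],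
    !![1, om, 0; 0, 1, 0; 0, 0, 1], !![0, 1, 0; 1, 0, 0; 0, 0, 1],
    !![1, 0, 0; 0, 0, 1; 0, 1, 0]].getD j 1

theorem gM_sq (j : ℕ) : gM j * gM j = 1 ∧ (gM j).det = 1 := by
  by_cases hj : j < 7
  · revert j
    simp only [det_fin_three]
    decide +kernel
  · rw [gM, List.getD_eq_default _ _ (by simpa using hj), one_mul, det_one]
    exact ⟨rfl, rfl⟩

def gS (j : ℕ) : Matrix.SpecialLinearGroup (Fin 3) F4 := ⟨gM j, (gM_sq j).2⟩

def gP (j : ℕ) : ProjectiveSpecialLinearGroup (Fin 3) F4 := QuotientGroup.mk' _ (gS j)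

theorem coe_ev (w : List ℕ) : (ev gS w).1 = (w.map gM).prod := by
  induction w with
  | nil => rfl
  | cons j w ih => rw [ev_cons, List.map_cons, List.prod_cons, ← ih]; rfl

theorem gM_rel : ∀ p ∈ rels, ∃ r ∈ [1, om, om * om], (p.1.map gM).prod = r • (p.2.map gM).prod := by
  decide +kernel

theorem gP_sq (j : ℕ) : gP j * gP j = 1 := by
  rw [gP, ← map_mul, show gS j * gS j = 1 from Subtype.ext (gM_sq j).1, map_one]

theorem gP_rel : ∀ p ∈ rels, ev gP p.1 = ev gP p.2 := fun p hp => by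
  obtain ⟨r, hr, e⟩ := gM_rel p hp
  have h : ∀ w, ev gP w = QuotientGroup.mk' _ (ev gS w) := fun w => (map_ev _ w).symm
  rw [h, h, eq_comm]
  refine QuotientGroup.eq.mpr (Matrix.SpecialLinearGroup.mem_center_iff.mpr ⟨r, ?_, ?_⟩)
  · clear e
    revert r
    simp only [Fintype.card_fin]
    decide +kernel
  · rw [Matrix.SpecialLinearGroup.coe_mul, coe_ev p.1, e, ← coe_ev, Matrix.mul_smul,
      ← Matrix.SpecialLinearGroup.coe_mul, inv_mul_cancel, Matrix.SpecialLinearGroup.coe_one, scalar_apply,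
      smul_one_eq_diagonal]

theorem gP_one_ne : gP 1 ≠ 1 := fun h => by
  obtain ⟨r, -, e⟩ := Matrix.SpecialLinearGroup.mem_center_iff.mp 
    ((QuotientGroup.eq_one_iff (gS 1)).mp h)
  have := congrFun (congrFun e 1) 2
  rw [scalar_apply, diagonal_apply_ne _ (by decide)] at this
  revert this
  decide +kernel

theorem card_PSL_le : Nat.card (ProjectiveSpecialLinearGroup (Fin 3) F4) ≤ 20160 := by
  have h1 := SL2C.card_SL_mul F4 3
  rw [card_GL_field, Nat.card_eq_fintype_card (α := F4), card_F4, Fin.prod_univ_three] at h1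
  have h2 := (center (Matrix.SpecialLinearGroup (Fin 3) F4)).card_mul_index
  have h3 : ∀ r : F4, r ^ 3 = 1 → (scalar (Fin 3) r).det = 1 := fun r hr => by
    rw [scalar_apply, det_diagonal, Fin.prod_const, hr]
  have h4 : 3 ≤ Nat.card (center (Matrix.SpecialLinearGroup (Fin 3) F4)) := by
    have : ∀ i : Fin 3, (om ^ (i : ℕ)) ^ 3 = 1 := by decide +kernel
    refine (Nat.card_fin 3).ge.trans <| Nat.card_le_card_of_injective (fun i : Fin 3 => ⟨⟨_, h3 _ (this i)⟩,
      Matrix.SpecialLinearGroup.mem_center_iff.mpr ⟨_, this i, rfl⟩⟩) fun i j e => ?_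
    have e' : om ^ (i : ℕ) = om ^ (j : ℕ) :=
      scalar_inj.mp (congrArg (fun x : center (Matrix.SpecialLinearGroup (Fin 3) F4) => x.1.1) e)
    clear e
    revert i j
    decide +kernel
  change _ * Nat.card (ProjectiveSpecialLinearGroup (Fin 3) F4) = _ at h2
  norm_num [-Nat.card_eq_fintype_card] at h1
  nlinarith

theorem primes_le : (20160 : ℕ).primeFactors.card ≤ 4 := by
  simp [Nat.primeFactors]

/-- A simple group of order `20160` generated by six involutions subject to `rels` is `PSL₃(4)`. -/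
theorem iso_of_rels {G : Type*} [Group G] [Finite G] [IsSimpleGroup G] (hc : Nat.card G = 20160)
    {g : ℕ → G} (hg : ∀ j, g j * g j = 1) (h7 : g 7 = 1) (hR : ∀ p ∈ rels, ev g p.1 = ev g p.2)
    (hgen : closure (g '' {j | j ∈ [1, 2, 3, 4, 5, 6]}) = ⊤) :
    ∃ (F : Type) (_ : Field F) (_ : Fintype F), Fintype.card F = 4 ∧
      Nonempty (G ≃* ProjectiveSpecialLinearGroup (Fin 3) F) := by
  let d : ℕ → G × ProjectiveSpecialLinearGroup (Fin 3) F4 := fun j => (g j, gP j)
  have h1 := card_le_of_rels (g := d) (fun j => Prod.ext (hg j) (gP_sq j))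
    (Prod.ext h7 (map_one (QuotientGroup.mk' _))) fun p hp => Prod.ext
      ((map_ev (g := d) (MonoidHom.fst _ _) _).trans ((hR p hp).trans
        (map_ev (g := d) (MonoidHom.fst _ _) _).symm))
      ((map_ev (g := d) (MonoidHom.snd _ _) _).trans
        ((gP_rel p hp).trans (map_ev (g := d) (MonoidHom.snd _ _) _).symm))
  set Γ := closure (d '' {j | j ∈ [1, 2, 3, 4, 5, 6]})
  let f : Γ →* G := (MonoidHom.fst _ _).comp Γ.subtype
  have h2 : Function.Surjective f := by
    rw [← MonoidHom.range_eq_top, MonoidHom.range_comp, range_subtype, MonoidHom.map_closure,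
      Set.image_image]
    exact hgen
  let e := MulEquiv.ofBijective f (h2.bijective_of_nat_card_le (hc ▸ h1))
  let φ := ((MonoidHom.snd _ _).comp Γ.subtype).comp e.symm.toMonoidHom
  have h3 : φ.ker = ⊥ := (IsSimpleGroup.eq_bot_or_eq_top_of_normal φ.ker inferInstance).resolve_right
    fun h => gP_one_ne (by
      have h4 : φ (e ⟨d 1, subset_closure ⟨1, by simp, rfl⟩⟩) = 1 := h.ge (mem_top _)
      simpa [φ] using h4)
  exact ⟨F4, inferInstance, finF4, card_F4, ⟨MulEquiv.ofBijective φ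
    (((MonoidHom.ker_eq_bot_iff φ).mp h3).bijective_of_nat_card_le (hc ▸ card_PSL_le))⟩⟩

end CfsgLib.L34
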