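import Cfsg.Agent.Lib.CIT.Geo
import Cfsg.Agent.Lib.CIT.L34
import Cfsg.Agent.Lib.H5Eppo

/-!
# Groups with elements of prime power order: the amalgam case with `q > 2` gives `PSL₃(4)`
-/

set_option autoImplicit false

namespace CfsgLib.Cit

open Subgroup Cfsg CfsgLib.FT.BGN CfsgLib.FT.U4 H5

variable {G : Type*} [Group G]

attribute [local instance] factTwo

theorem cit_of_eppo (h : Eppo G) : CIT G := fun t y ht h1 hc hy =>
  (h.eq_one_or_eq_one hc (by
    rw [orderOf_eq_prime (by rwa [pow_two]) h1]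
    exact Nat.coprime_two_left.mpr hy)).resolve_left h1

theorem word_eq {s b k : G} (hs : s * s = 1) (hb : b * b = 1) (hk : k ^ 3 = 1)
    (hsk : s * k * s = k⁻¹) (h : s * b * s = b * s * b) :
    s * (k⁻¹ * b * k) * s * (k * b * k⁻¹) * s * (k⁻¹ * b * k) = k⁻¹ := by
  have h1 : k * s * k = s := by
    calc _ = k * (s * k * s) * s⁻¹ := by group
      _ = s := by rw [hsk, Invol.inv_eq hs]; group
  have h2 : k⁻¹ * s * k⁻¹ = s := by rw [← Invol.inv_eq hs, ← h1]; nth_rewrite 2 [← h1]; group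
  calc _ = s * k⁻¹ * (b * ((k * s * k) * b * (k⁻¹ * s * k⁻¹)) * b) * k := by group
    _ = s * k⁻¹ * (b * b * s * (b * b)) * k := by rw [h1, h2, h]; group
    _ = s * (k⁻¹ * s * k⁻¹) * k ^ 3 * k⁻¹ := by rw [hb]; group
    _ = k⁻¹ := by rw [h2, hs, hk]; group

theorem conj_swap {t k : G} (ht : t * t = 1) (h : t * k * t = k⁻¹) (x : G) :
    t * (k * x * k⁻¹) * t = k⁻¹ * (t * x * t) * k := by
  calc _ = t * k * t * (t⁻¹ * x * t) * (t⁻¹ * k * t)⁻¹ * (t⁻¹ * t) := by group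
    _ = _ := by rw [Invol.inv_eq ht, h, ht]; group

theorem mul_swap {t k z : G} (ht : t * t = 1) (h : t * k * t = k⁻¹) (hk : k ^ 3 = 1)
    (e : k * (k * z * k⁻¹) * k⁻¹ = z * (k * z * k⁻¹)) :
    t * z * t * (t * (k * z * k⁻¹) * t) = k * (t * z * t) * k⁻¹ := by
  calc _ = t * z * (t * t) * (k * z * k⁻¹) * t := by group
    _ = t * (k * (k * z * k⁻¹) * k⁻¹) * t := by rw [ht, e]; group
    _ = k * (k ^ 3)⁻¹ * (t * z * t) * k ^ 3 * k⁻¹ := by
      rw [conj_swap ht h, conj_swap ht h, pow_three]; group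
    _ = _ := by rw [hk]; group

variable [Finite G] {P L : Subgroup G} {q : ℕ}

namespace Big

variable (h : Big P L q)
include h

theorem col_of_eppo (hE : Eppo G) (g : G) : g ∈ Col P L := by
  refine h.col_or.resolve_right ?_ g
  rintro ⟨D, hD, hc⟩
  have hq := h.lt
  obtain ⟨n, hn⟩ := h.exists_two_pow
  obtain ⟨p, hp, h1⟩ := Nat.exists_prime_and_dvd (show q - 1 ≠ 1 by omega)
  obtain ⟨r, hr, h2⟩ := Nat.exists_prime_and_dvd (show q + 1 ≠ 1 by omega)
  haveI := Fact.mk hp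
  haveI := Fact.mk hr
  rw [← one_pow 2, Nat.sq_sub_sq] at hc
  obtain ⟨x, hx⟩ := exists_prime_orderOf_dvd_card' (G := D) p (hc ▸ h1.mul_left _)
  obtain ⟨y, hy⟩ := exists_prime_orderOf_dvd_card' (G := D) r (hc ▸ h2.mul_right _)
  rw [← orderOf_coe] at hx hy
  rcases hE.eq_one_or_eq_one (x := x) (y := y) (mem_cent.mp (hD y.2) x x.2) (by
    rw [hx, hy, Nat.coprime_primes hp hr]
    rintro rfl
    have h3 := Nat.dvd_sub h2 h1
    rw [show q + 1 - (q - 1) = 2 by omega, Nat.prime_dvd_prime_iff_eq hp Nat.prime_two] at h3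
    have h4 : 2 ∣ q := hn ▸ dvd_pow_self 2 (by rintro rfl; omega)
    rw [h3] at h2
    omega) with e | e
  · exact hp.one_lt.ne (by rw [← hx, e, orderOf_one])
  · exact hr.one_lt.ne (by rw [← hy, e, orderOf_one])

theorem eq_four (hE : Eppo G) : q = 4 := by
  have hq := h.lt
  obtain ⟨n, hn⟩ := h.exists_two_pow
  have h4 : 2 ∣ q := hn ▸ dvd_pow_self 2 (by rintro rfl; omega)
  have key : ∀ {p : ℕ}, p.Prime → p ∣ q - 1 → p = 3 := fun {p} hp h1 => by
    by_contra h3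
    haveI := Fact.mk hp
    have h2 : p ≠ 2 := by rintro rfl; omega
    obtain ⟨S, -, hS⟩ := IsSylowIn.exists_ge (IsPGroup.of_bot (p := p)) (bot_le : ⊥ ≤ 𝐍(P ⊔ L))
    obtain ⟨Z, hZ, hc⟩ := FT.exists_center_prime hS.isPGroup fun e => hS.not_dvd (by
      rw [e, relIndex_bot_left, h.card_B]; exact h1.mul_left _)
    obtain ⟨k, hk⟩ := exists_prime_orderOf_dvd_card' (G := Z) p (hc ▸ dvd_rfl)
    rw [← orderOf_coe] at hk
    have hk1 : (k : G) ≠ 1 := fun e => hp.one_lt.ne (by rw [← hk, e, orderOf_one])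
    have hkB := hS.le (hZ k.2).1
    have ho : Odd (orderOf (k : G)) := hk ▸ hp.odd_of_ne_two h2
    obtain ⟨t, ht, ht', htt, htk⟩ := h.exists_inverts hkB ho hk1
    obtain ⟨s, hs, -, hss, hsk⟩ := h.symm.exists_inverts (sup_comm P L ▸ hkB) ho hk1
    have h5 : IsSylowIn p S ⊤ := FT.sylow_trans hS le_top (by
      have h6 := (𝐍(P ⊔ L)).card_mul_index
      rw [h.card_B, h.card_G (h.col_of_eppo hE), Nat.mul_right_inj
        (Nat.mul_ne_zero (by positivity) (by omega))] at h6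
      rw [relIndex_top_right, h6]
      obtain ⟨m, rfl⟩ : ∃ m, q = m + 1 := ⟨q - 1, by omega⟩
      rw [Nat.add_sub_cancel] at h1
      refine fun e => (hp.dvd_mul.mp e).elim (fun e => h2 ?_) fun e => h3 ?_
      · exact (Nat.prime_dvd_prime_iff_eq hp Nat.prime_two).mp ((Nat.dvd_add_right h1).mp e)
      · rw [show (m + 1) ^ 2 + (m + 1) + 1 = m * (m + 3) + 3 by ring] at e
        exact (Nat.prime_dvd_prime_iff_eq hp Nat.prime_three).mp
          ((Nat.dvd_add_right (h1.mul_right _)).mp e))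
    have h6 := h5.eq_of_le (hE.isPGroup_centralizer hp (hk ▸ dvd_rfl))
      (fun x hx => mem_cent1.mpr (mem_cent.mp (hZ k.2).2 x hx)) le_top
    refine ht' ((mul_mem_cancel_left hs).mp (h.norm_le (hS.le (h6.le (mem_cent1_of_conj_eq ?_)))))
    rw [mul_inv_rev, Invol.inv_eq hss, Invol.inv_eq htt]
    calc _ = s * (t * k * t) * s := by group
      _ = (s * k * s)⁻¹ := by rw [htk, mul_inv_rev, mul_inv_rev, Invol.inv_eq hss, mul_assoc]
      _ = k := by rw [hsk, inv_inv]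
  have h5 := Nat.eq_prime_pow_of_unique_prime_dvd (show q - 1 ≠ 0 by omega) key
  generalize (q - 1).primeFactorsList.length = a at h5
  have h6 : ∀ a, 3 ^ a % 8 = 1 ∨ 3 ^ a % 8 = 3 := fun a => by
    induction a with
    | zero => simp
    | succ a ih => rw [pow_succ]; omega
  have h7 := h6 a
  match n, hn with
  | 0, hn | 1, hn | 2, hn => omega
  | n + 3, hn => rw [pow_add] at hn; omega

theorem braid_unique {z w x : G} (hz : z ∈ P ⊓ L) (hz1 : z ≠ 1) (hww : w * w = 1)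
    (hx : x ∈ 𝐍(P ⊔ L)) (hx3 : x ^ 3 = 1) (hwx : w * x * w⁻¹ = x⁻¹) (e1 : w * z * w = z * w * z)
    (e2 : w * x * z * (w * x) = z * (w * x) * z) : x = 1 := by
  have h1 : w * x = x * w * x⁻¹ := by
    calc _ = x * (x ^ 3)⁻¹ * x * (x * (w * x * w⁻¹)) * w := by rw [pow_three]; group
      _ = x * w * (w⁻¹ * x * w) := by rw [hx3, hwx]; group
      _ = _ := by rw [Invol.inv_eq hww] at hwx ⊢; rw [hwx]
  have h2 : x⁻¹ * z * x⁻¹⁻¹ ∈ P ⊓ L :=
    ⟨cmem (h.norm_le (inv_mem hx)) hz.1, cmem (h.norm_le' (inv_mem hx)) hz.2⟩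
  have h3 : w * (x⁻¹ * z * x⁻¹⁻¹) * w = x⁻¹ * z * x⁻¹⁻¹ * w * (x⁻¹ * z * x⁻¹⁻¹) := by
    rw [h1] at e2
    calc _ = x⁻¹ * (x * w * x⁻¹ * z * (x * w * x⁻¹)) * x := by group
      _ = _ := by rw [e2]; group
  refine h.cit z x (h.l.sq z hz.1) hz1 ?_ (odd_of_cube hx3)
  suffices e : (x⁻¹ * z * x⁻¹⁻¹)⁻¹ = z by
    rw [Invol.inv_eq (h.l.sq _ h2.1)] at e
    nth_rewrite 2 [← e]; group
  generalize x⁻¹ * z * x⁻¹⁻¹ = c at h2 h3
  have h4 : (w * (z * c) * w⁻¹)⁻¹ * z * (w * (z * c) * w⁻¹)⁻¹⁻¹ = c⁻¹ := by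
    rw [inv_inv, mul_assoc _ z, inv_mul_eq_iff_eq_mul, eq_mul_inv_iff_mul_eq, Invol.inv_eq hww]
    calc _ = z * w * z * (c * w * c) := by group
      _ = w * z * (w * w) * c * w := by rw [← e1, ← h3]; group
      _ = _ := by rw [hww]; group
  have h5 := Invol.conj_mul_self (h.l.sq _ (mul_mem hz h2).1) w
  rw [← h4]
  refine conj_eq_of_mem_cent1 ((h.cent_eq hz hz1).ge (h.mem_T (two_of_sq ?_)
    (mem_B (h.mem_H hz hz1 (h4 ▸ inv_mem h2.1)) (h.mem_H' hz hz1 (h4 ▸ inv_mem h2.2)))))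
  rwa [Invol.inv_eq h5]

section

variable {s t : G} (hs : s ∈ 𝐍(P)) (hs' : s ∉ 𝐍(L)) (hss : s * s = 1)
  (ht : t ∈ 𝐍(L)) (ht' : t ∉ 𝐍(P)) (htt : t * t = 1)

include ht ht' in
theorem norm_le_of {M : Subgroup G} (h1 : t ∈ M) (h2 : 𝐍(P ⊔ L) ≤ M) : 𝐍(L) ≤ M := fun g hg => by
  by_cases e : g ∈ 𝐍(P)
  · exact h2 (mem_B e hg)
  obtain ⟨x, hx, h3⟩ := h.two_trans ht ht' hg e
  have h4 := le_normalizer hx
  exact (M.mul_mem_cancel_left (inv_mem (mul_mem (h2 h4) h1))).mp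
    (h2 (mem_B h3 (mul_mem (inv_mem (mul_mem (h.norm_le' h4) ht)) hg)))

include ht ht' in
theorem le_of {M : Subgroup G} (h1 : t ∈ M) (h2 : P ⊓ L ≤ M) : L ≤ M := by
  have h3 : t •ᶜ (P ⊓ L) ≤ L := FT.cj_le_of_norm inf_le_right ht
  rw [← eq_of_le_of_card_le (sup_le (inf_le_right : P ⊓ L ≤ L) h3) (by
    rw [card_sup_of_disjoint (inf_le_right.trans ((le_cent_of_sq h.r.sq).trans
      ((centralizer_le h3).trans (cent_le_norm _)))), card_map_conj, h.l.cardZ, h.r.card, pow_two]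
    refine eq_bot_iff.mpr fun x hx => by_contra fun e => ht' (h.mem_H (mem_cj.mp hx.2)
      (by simpa using (conj_ne_one_iff (g := t⁻¹)).mpr e) (by simpa [mul_assoc] using hx.1.1)))]
  exact sup_le h2 (FT.cj_le_of_norm h2 (le_normalizer h1))

include ht ht' htt in
theorem conj_mem {x : G} (hx : x ∈ P ⊓ L) : t * x * t ∈ L ∧ (x ≠ 1 → t * x * t ∉ P) := by
  have h1 := cmem ht hx.2
  have h2 := fun h3 h4 => ht' (h.mem_H (g := t) hx h3 h4)
  rw [Invol.inv_eq htt] at h1 h2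
  exact ⟨h1, h2⟩

include hs hs' hss in
theorem braid {z b : G} (hz : z ∈ P ⊓ L) (hz1 : z ≠ 1) (hb : b ∈ L) (hbP : b ∉ P)
    (e : b * (s * z * s) * b * (s * z * s) = z) : s * b * s = b * s * b := by
  have hbb := h.r.sq b hb
  have hzz := h.l.sq z hz.1
  obtain ⟨T', h1, hT'⟩ := IsSylowIn.exists_ge (two_of_sq hss) (zpowers_le.mpr hs)
  have h2 := (h.cit.odd_mul h.l.p2 h.l.ti hT' h.l.syl
    (fun e => hs' (h.norm_le' (le_normalizer (e.le (h1 (mem_zpowers s)))))) (h1 (mem_zpowers s))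
    (fun e => hs' (h.r.syl.le (mem_sup_right e))) (hss ▸ P.one_mem) (mem_sup_right hb) hbP
    (hbb ▸ P.one_mem)).1
  have h3 : b * z * b = z := by rw [comm_of_sq h.r.sq hb hz.2, mul_assoc, hbb, mul_one]
  have h4 : (s * b) ^ 3 = 1 := by
    refine Invol.eq_one_of_odd_of_mem h.top.isPGroup ((h.cent_eq hz hz1).le
      (mem_cent1_of_conj_eq ?_)) (h2.of_dvd_nat (orderOf_pow_dvd 3))
    have h5 := comm_of_sq h.l.sq (h.symm.conj_mem hs hs' hss ⟨hz.2, hz.1⟩).1 hz.1
    have h6 := h.l.sq _ (h.symm.conj_mem hs hs' hss ⟨hz.2, hz.1⟩).1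
    have hi : (s * b)⁻¹ = b * s := by rw [mul_inv_rev, Invol.inv_eq hss, Invol.inv_eq hbb]
    have h7 : s * b * z * (s * b)⁻¹ = s * z * s := by
      rw [hi]; nth_rewrite 2 [← h3]; group
    have h8 : s * b * (s * z * s) * (s * b)⁻¹ = s * z * s * z := by
      rw [hi]
      calc _ = s * (b * (s * z * s) * b * (s * z * s)) * (s * z * s)⁻¹ * s := by group
        _ = s * z * s * z * (s * s) := by rw [e, Invol.inv_eq h6]; group
        _ = _ := by rw [hss, mul_one]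
    generalize s * b = y at h7 h8
    calc _ = y * (y * (y * z * y⁻¹) * y⁻¹) * y⁻¹ := by rw [pow_three]; group
      _ = y * (s * z * s) * y⁻¹ * (y * z * y⁻¹) := by nth_rewrite 1 [h7, h8]; group
      _ = z := by rw [h7, h8, h5, mul_assoc z, h6, mul_one]
  calc _ = (s * b) ^ 3 * b⁻¹ * s⁻¹ * b⁻¹ := by simp only [pow_succ]; group
    _ = _ := by rw [h4, one_mul, Invol.inv_eq hss, Invol.inv_eq hbb]

include hs hs' hss ht ht' htt

theorem not_comm' {x y : G} (hx : x ∈ P ⊓ L) (hy : y ∈ P ⊓ L) (hy1 : y ≠ 1)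
    (e : s * y * s * (t * x * t) = t * x * t * (s * y * s)) : x = 1 := by
  by_contra hx1
  have h1 := h.conj_mem ht ht' htt hx
  have h2 := h.symm.conj_mem hs hs' hss ⟨hy.2, hy.1⟩
  exact h2.2 hy1 ((h.l.cent _ (mem_sup_right h1.1) (h1.2 hx1)).le ⟨h2.1, mem_cent1.mpr e⟩).2

theorem beta_mem {x y : G} (hx : x ∈ P ⊓ L) (hy : y ∈ P ⊓ L) :
    t * x * t * (s * y * s) * (t * x * t) * (s * y * s) ∈ P ⊓ L := by
  have h1 := (h.conj_mem ht ht' htt hx).1
  have h2 := (h.symm.conj_mem hs hs' hss ⟨hy.2, hy.1⟩).1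
  have h3 := cmem (h.l.syl.le (mem_sup_right h1)) h2
  have h4 := cmem (h.r.syl.le (mem_sup_right h2)) h1
  rw [Invol.inv_eq (h.r.sq _ h1)] at h3
  rw [Invol.inv_eq (h.l.sq _ h2)] at h4
  exact mem_inf.mpr ⟨P.mul_mem h3 h2, by simpa only [mul_assoc] using L.mul_mem h1 h4⟩

theorem beta_inj {x x' y : G} (hx : x ∈ P ⊓ L) (hx' : x' ∈ P ⊓ L) (hy : y ∈ P ⊓ L) (hy1 : y ≠ 1)
    (e : t * x * t * (s * y * s) * (t * x * t) * (s * y * s) =
      t * x' * t * (s * y * s) * (t * x' * t) * (s * y * s)) : x = x' := by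
  have h1 := h.r.sq _ (h.conj_mem ht ht' htt hx).1
  have h2 := h.r.sq _ (h.conj_mem ht ht' htt hx').1
  have h3 : ∀ x x', t * (x * x') * t = t * x * t * (t * x' * t) := fun x x' => by
    calc _ = t * x * (t * t) * x' * t := by rw [htt]; group
      _ = _ := by group
  rw [← Invol.inv_eq (h.l.sq x' hx'.1), eq_inv_iff_mul_eq_one, comm_of_sq h.l.sq hx.1 hx'.1]
  refine h.not_comm' hs hs' hss ht ht' htt (mul_mem hx' hx) hy hy1 ?_
  rw [h3]
  generalize t * x * t = b, t * x' * t = b', s * y * s = a at e h1 h2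
  calc _ = b' * b' * a * b' * b := by rw [h2]; group
    _ = b' * (b * a * b) * b := by rw [mul_right_cancel e]; group
    _ = b' * b * a * (b * b) := by group
    _ = _ := by rw [h1, mul_one]

theorem beta_inj' {x y y' : G} (hx : x ∈ P ⊓ L) (hy : y ∈ P ⊓ L) (hy' : y' ∈ P ⊓ L) (hx1 : x ≠ 1)
    (e : t * x * t * (s * y * s) * (t * x * t) * (s * y * s) =
      t * x * t * (s * y' * s) * (t * x * t) * (s * y' * s)) : y = y' := by
  refine h.symm.beta_inj ht ht' htt hs hs' hss ⟨hy.2, hy.1⟩ ⟨hy'.2, hy'.1⟩ ⟨hx.2, hx.1⟩ hx1 ?_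
  generalize t * x * t = b, s * y * s = a, s * y' * s = a' at e
  calc _ = b⁻¹ * (b * a * b * a) * b := by group
    _ = _ := by rw [e]; group

end

end Big

namespace Big

variable (h : Big P L 4) {k : G} (hk : k ∈ 𝐍(P ⊔ L)) (h3 : orderOf k = 3)
include h hk h3

theorem fpf {x : G} (hx : x ∈ P ⊔ L) (e : k * x * k⁻¹ = x) : x = 1 :=
  h.cit.fpf h.top.isPGroup (y := k) (by rw [h3]; decide)
    (fun e => by simp [e] at h3) x hx (mul_inv_eq_iff_eq_mul.mp e).symm

theorem cj_mem_Z {x : G} (hx : x ∈ P ⊓ L) : k * x * k⁻¹ ∈ P ⊓ L :=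
  ⟨cmem (h.norm_le hk) hx.1, cmem (h.norm_le' hk) hx.2⟩

theorem cj_cj_eq {x : G} (hx : x ∈ P ⊓ L) : k * (k * x * k⁻¹) * k⁻¹ = x * (k * x * k⁻¹) := by
  rw [three_prod hk (fun d hd e => h.fpf hk h3 hd (mul_inv_eq_iff_eq_mul.mpr e.symm))
    (h3 ▸ pow_orderOf_eq_one k) (mem_sup_left hx.1)]
  exact Invol.inv_eq (h.l.sq _ (mul_mem hx (h.cj_mem_Z hk h3 hx)).1)

theorem mem_cases {w x : G} (hw : w ∈ P ⊓ L) (hw1 : w ≠ 1) (hx : x ∈ P ⊓ L) :
    x = 1 ∨ x = w ∨ x = k * w * k⁻¹ ∨ x = w * (k * w * k⁻¹) := by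
  have h1 : k * w * k⁻¹ ≠ w := fun e => hw1 (h.fpf hk h3 (mem_sup_left hw.1) e)
  have h2 : k * w * k⁻¹ ≠ 1 := conj_ne_one_iff.mpr hw1
  have h4 := h.cj_mem_Z hk h3 hw
  generalize k * w * k⁻¹ = v at h1 h2 h4
  have h5 : w * v ≠ 1 := fun e => h1 (by rw [← Invol.inv_eq (h.l.sq w hw.1), inv_eq_of_mul_eq_one_right e])
  have : ({1, w, v, w * v} : Set G) = (P ⊓ L : Subgroup G) := by
    refine Set.eq_of_subset_of_ncard_le (by
      simp only [Set.insert_subset_iff, Set.singleton_subset_iff]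
      exact ⟨one_mem (P ⊓ L), hw, h4, mul_mem hw h4⟩) ?_
    rw [Set.ncard_insert_of_notMem (by simp [hw1.symm, h2.symm, h5.symm]),
      Set.ncard_insert_of_notMem (by simp [h1.symm, h2]), Set.ncard_pair (by simp [hw1])]
    exact h.l.cardZ.le
  exact this.ge hx

end Big

theorem Big.iso (h : Big P L q) (h0 : Loc (⊥ : Subgroup G)) (hE : Eppo G) :
    Nat.card G = 20160 ∧ ∃ (F : Type) (_ : Field F) (_ : Fintype F), Fintype.card F = 4 ∧
      Nonempty (G ≃* Matrix.ProjectiveSpecialLinearGroup (Fin 3) F) := by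
  obtain rfl := h.eq_four hE
  have hc : Nat.card G = 20160 := h.card_G (h.col_of_eppo hE)
  haveI := h.simple_of_big h.cit h0 h.lt
  haveI := Fact.mk Nat.prime_three
  obtain ⟨⟨k, hk⟩, h3⟩ := exists_prime_orderOf_dvd_card' (G := 𝐍(P ⊔ L)) 3 (by rw [h.card_B]; decide)
  rw [← orderOf_coe] at h3
  change orderOf k = 3 at h3
  have hk3 : k ^ 3 = 1 := h3 ▸ pow_orderOf_eq_one k
  have ho : Odd (orderOf k) := by rw [h3]; decide
  have hk1 : k ≠ 1 := fun e => by simp [e] at h3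
  obtain ⟨z, hz, hz1⟩ := h.l.exists_mem
  obtain ⟨s, hs, hs', hss, hsk⟩ := h.symm.exists_inverts (sup_comm P L ▸ hk) ho hk1
  obtain ⟨t, ht, ht', htt, htk, e00⟩ : ∃ t ∈ 𝐍(L), t ∉ 𝐍(P) ∧ t * t = 1 ∧ t * k * t = k⁻¹ ∧
      t * z * t * (s * z * s) * (t * z * t) * (s * z * s) = z := by
    obtain ⟨t, ht, ht', htt, htk⟩ := h.exists_inverts hk ho hk1
    obtain ⟨⟨x, hx⟩, e⟩ := Finite.surjective_of_injective (f := fun x : ↥(P ⊓ L) =>
      (⟨_, h.beta_mem hs hs' hss ht ht' htt x.2 hz⟩ : ↥(P ⊓ L))) (fun x y e => Subtype.ext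
        (h.beta_inj hs hs' hss ht ht' htt x.2 y.2 hz hz1 (congrArg Subtype.val e))) ⟨z, hz⟩
    replace e : t * x * t * (s * z * s) * (t * x * t) * (s * z * s) = z := congrArg Subtype.val e
    obtain ⟨c, hc, rfl⟩ : ∃ c ∈ zpowers k, x = c * z * c⁻¹ := by
      rcases h.mem_cases hk h3 hz hz1 hx with e' | e' | e' | e'
      · rw [e', mul_one, htt, one_mul, mul_one,
          h.l.sq _ (h.symm.conj_mem hs hs' hss ⟨hz.2, hz.1⟩).1] at e
        exact absurd e.symm hz1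
      · exact ⟨1, one_mem _, by simpa using e'⟩
      · exact ⟨k, mem_zpowers k, e'⟩
      · exact ⟨k * k, mul_mem (mem_zpowers k) (mem_zpowers k), by
          rw [e', ← h.cj_cj_eq hk h3 hz]; group⟩
    have h1 := Invol.inverts_of_mem_zpowers (a := t) (by rwa [Invol.inv_eq htt]) hc
    have h2 := Invol.mul_mul_self htt h1
    have h4 : t * c = c⁻¹ * t := by rw [← h1]; group
    have h5 := zpowers_le.mpr hk hc
    refine ⟨t * c, mul_mem ht (h.norm_le' h5), fun e => ht' ((mul_mem_cancel_right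
      (h.norm_le h5)).mp e), h2, ?_, ?_⟩
    · obtain ⟨n, rfl⟩ := hc
      nth_rewrite 2 [h4]
      rw [← htk]; group
    · have : t * c * z * (t * c) = t * (c * z * c⁻¹) * t := by nth_rewrite 2 [h4]; group
      rw [this, e]
  have hz' : z ∈ L ⊓ P := ⟨hz.2, hz.1⟩
  have hzz := h.l.sq z hz.1
  have hc1 := h.cj_mem_Z hk h3 hz
  have hc2 := h.cj_cj_eq hk h3 hz
  have hc3 : k * z * k⁻¹ ≠ z := fun e => hz1 (h.fpf hk h3 (mem_sup_left hz.1) e)
  have hc4 : k * z * k⁻¹ ≠ 1 := conj_ne_one_iff.mpr hz1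
  have ha0 := h.symm.conj_mem hs hs' hss hz'
  have hb0 := h.conj_mem ht ht' htt hz
  have br1 := h.braid hs hs' hss hz hz1 hb0.1 (hb0.2 hz1) e00
  have br2 := h.symm.braid ht ht' htt hz' hz1 ha0.1 (ha0.2 hz1) (by
    have := congrArg (·⁻¹) e00
    simpa only [mul_inv_rev, Invol.inv_eq hss, Invol.inv_eq htt, Invol.inv_eq hzz, mul_assoc]
      using this)
  have w1 := word_eq hss (h.r.sq _ hb0.1) hk3 hsk br1
  have w2 := word_eq htt (h.l.sq _ ha0.1) hk3 htk br2
  have m1 := mul_swap htt htk hk3 hc2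
  have m2 := mul_swap hss hsk hk3 hc2
  have s1 := conj_swap htt htk
  have s2 := conj_swap hss hsk z
  rw [← m1, ← s1] at w1
  rw [← m2, ← s2] at w2
  have e11 : t * (k * z * k⁻¹) * t * (s * (k * z * k⁻¹) * s) * (t * (k * z * k⁻¹) * t) *
      (s * (k * z * k⁻¹) * s) = z * (k * z * k⁻¹) := by
    rw [← hc2, s1, s2]
    calc _ = k⁻¹ * (t * z * t * (s * z * s) * (t * z * t) * (s * z * s)) * k := by group
      _ = k * k * (k ^ 3)⁻¹ * z * k ^ 3 * k⁻¹ * k⁻¹ := by rw [e00, pow_three]; group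
      _ = _ := by rw [hk3]; group
  have s3 := s1 (k * z * k⁻¹)
  have s4 := s1 z
  have hcs := fun {x} => h.mem_cases (x := x) hk h3 hz hz1
  rw [hc2] at s3
  have br3 : s * t * s = t * s * t := by
    have h1 : s * t ∈ 𝐂[k] := mem_cent1_of_conj_eq (by
      rw [mul_inv_rev, Invol.inv_eq hss, Invol.inv_eq htt]
      calc _ = s * (t * k * t) * s := by group
        _ = (s * k * s)⁻¹ := by rw [htk, mul_inv_rev, mul_inv_rev, Invol.inv_eq hss, mul_assoc]
        _ = k := by rw [hsk, inv_inv])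
    obtain ⟨n, hn⟩ := IsPGroup.iff_card.mp (hE.isPGroup_centralizer Nat.prime_three h3.symm.dvd)
    have h2 := card_mul_relIndex (zpowers_le.mpr (self_mem_cent1 k))
    have h4 : (zpowers k).relIndex 𝐂[k] ∣ 3 := by
      have h5 := card_subgroup_dvd_card 𝐂[k]
      rw [hn, hc] at h5
      have h6 : 3 ^ n ∣ 3 ^ 2 := Nat.Coprime.dvd_of_dvd_mul_right (n := 2240)
        (Nat.Coprime.pow_left n (by norm_num)) h5
      rw [← hn, ← h2, Nat.card_zpowers, h3, pow_two] at h6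
      exact Nat.dvd_of_mul_dvd_mul_left three_pos h6
    haveI : ((zpowers k).subgroupOf 𝐂[k]).Normal := normal_subgroupOf_of_le_normalizer
      ((cent_zpowers k).ge.trans (cent_le_norm _))
    obtain ⟨m, hm⟩ := h4
    have h5 : (s * t) ^ 3 ∈ zpowers k := by
      rw [hm, pow_mul]
      exact pow_mem (pow_index_mem ((zpowers k).subgroupOf 𝐂[k]) ⟨_, h1⟩) m
    have h6 : t * s * t = s * t * s * (s * t) ^ 3 := by
      calc _ = s * (t * (s * s) * t) * s * t * s * t := by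
            rw [hss, mul_one, htt, mul_one, hss, one_mul]
        _ = _ := by rw [pow_three]; group
    have h7 : s * t * s * (s * t * s) = 1 := by
      simpa only [Invol.inv_eq hss] using Invol.conj_mul_self htt s
    rw [h6, h.braid_unique hz hz1 h7 (zpowers_le.mpr hk h5)
      (orderOf_dvd_iff_pow_eq_one.mp ((orderOf_dvd_of_mem_zpowers h5).trans h3.dvd))
      (Invol.inverts_of_mem_zpowers (by
        rw [Invol.inv_eq h7]
        calc _ = s * (t * (s * k * s) * t) * s := by group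
          _ = s * (t * k * t)⁻¹ * s := by
            rw [hsk, mul_inv_rev, mul_inv_rev, Invol.inv_eq htt, mul_assoc t]
          _ = _ := by rw [htk, inv_inv, hsk]) h5) ?_ ?_, mul_one]
    · calc _ = s * (t * (s * z * s) * t) * s := by group
        _ = s * s * z * (s * t * s) * z * (s * s) := by rw [br2]; group
        _ = _ := by rw [hss]; group
    · rw [← h6]
      calc _ = t * (s * (t * z * t) * s) * t := by group
        _ = t * t * z * (t * s * t) * z * (t * t) := by rw [br1]; group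
        _ = _ := by rw [htt]; group
  generalize k * z * k⁻¹ = c at *
  have e10 : t * c * t * (s * z * s) * (t * c * t) * (s * z * s) = c := by
    rcases hcs (h.beta_mem hs hs' hss ht ht' htt hc1 hz) with e | e | e | e
    · refine absurd (h.beta_inj hs hs' hss ht ht' htt hc1 (one_mem _) hz hz1 ?_) hc4
      rw [e, mul_one t, htt, one_mul, mul_one, h.l.sq _ ha0.1]
    · exact absurd (h.beta_inj hs hs' hss ht ht' htt hc1 hz hz hz1 (e.trans e00.symm)) hc3
    · exact e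
    · exact absurd (h.beta_inj' hs hs' hss ht ht' htt hc1 hz hc1 hc4 (e.trans e11.symm)) hc3.symm
  have ha1 := h.symm.conj_mem hs hs' hss (x := c) ⟨hc1.2, hc1.1⟩
  have hb1 := h.conj_mem ht ht' htt hc1
  have e01 : t * z * t * (s * c * s) * (t * z * t) * (s * c * s) = c := by
    rcases hcs (h.beta_mem hs hs' hss ht ht' htt hz hc1) with e | e | e | e
    · refine absurd (h.beta_inj hs hs' hss ht ht' htt hz (one_mem _) hc1 hc4 ?_) hz1
      rw [e, mul_one t, htt, one_mul, mul_one, h.l.sq _ ha1.1]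
    · exact absurd (h.beta_inj' hs hs' hss ht ht' htt hz hc1 hz hz1 (e.trans e00.symm)) hc3
    · exact e
    · exact absurd (h.beta_inj hs hs' hss ht ht' htt hz hc1 hc1 hc4 (e.trans e11.symm)) hc3.symm
  have hss' : ∀ x, s * (s * x * s) * s = x := fun x => by
    calc _ = s * s * x * (s * s) := by group
      _ = x := by rw [hss]; group
  have htt' : ∀ x, t * (t * x * t) * t = x := fun x => by
    calc _ = t * t * x * (t * t) := by group
      _ = x := by rw [htt]; group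
  have i1 := comm_of_sq h.l.sq ha0.1 ha1.1
  have i2 := comm_of_sq h.r.sq hb0.1 hb1.1
  have i3 : t * (z * c) * t = t * z * t * (t * c * t) := by
    calc _ = t * z * (t * t) * c * t := by rw [htt]; group
      _ = _ := by group
  have j1 := hss' z
  have j2 := hss' c
  have j3 := htt' z
  have j4 := htt' c
  rw [i3] at s3
  refine ⟨hc, L34.iso_of_rels hc
    (g := fun j => [1, s * z * s, s * c * s, t * z * t, t * c * t, s, t].getD j 1) (fun j => ?_)
    rfl ?_ (eq_top_iff.mpr fun g _ => ?_)⟩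
  · match j with
    | 0 | _ + 7 => exact one_mul 1
    | 1 => exact h.l.sq _ ha0.1
    | 2 => exact h.l.sq _ ha1.1
    | 3 => exact h.r.sq _ hb0.1
    | 4 => exact h.r.sq _ hb1.1
    | 5 => exact hss
    | 6 => exact htt
  · generalize s * z * s = a0, s * c * s = a1, t * z * t = b0, t * c * t = b1 at *
    simp only [L34.rels, List.forall_mem_cons, TC.ev_cons, TC.ev_nil, List.getD_cons_succ,
      List.getD_cons_zero, mul_one, ← mul_assoc, List.not_mem_nil, IsEmpty.forall_iff,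
      implies_true, and_true] at w1 w2 ⊢
    refine ⟨i1, i2, e10.trans e01.symm, ?_, e00.trans j1.symm, e01.trans j2.symm, br1, ?_, ?_,
      e00.trans j3.symm, e01.trans j4.symm, br2, w1.trans w2.symm, br3⟩
    · rw [e11, e00, ← e01]; group
    · calc _ = k⁻¹ * b0 * k * k⁻¹ := by rw [w1]; group
        _ = _ := by rw [← s4, ← w1]; group
    · calc _ = k⁻¹ * b1 * k * k⁻¹ := by rw [w1]; group
        _ = _ := by rw [← s3, ← w1]; group
  · set M := closure ((fun j => [1, s * z * s, s * c * s, t * z * t, t * c * t, s, t].getD j 1) ''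
      {j | j ∈ [1, 2, 3, 4, 5, 6]})
    have hM : ∀ j ∈ [1, 2, 3, 4, 5, 6],
        [1, s * z * s, s * c * s, t * z * t, t * c * t, s, t].getD j 1 ∈ M :=
      fun j hj => subset_closure ⟨j, hj, rfl⟩
    have g3 : t * z * t ∈ M := hM 3 (by simp)
    have g4 : t * c * t ∈ M := hM 4 (by simp)
    have g5 : s ∈ M := hM 5 (by simp)
    have g6 : t ∈ M := hM 6 (by simp)
    have g7 : z ∈ M := j3 ▸ mul_mem (mul_mem g6 g3) g6
    have g8 : c ∈ M := j4 ▸ mul_mem (mul_mem g6 g4) g6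
    have g9 : P ⊓ L ≤ M := fun x hx => by
      rcases hcs hx with e | e | e | e <;> rw [e]
      exacts [one_mem M, g7, g8, mul_mem g7 g8]
    have hB : 𝐍(P ⊔ L) ≤ M := by
      rw [← eq_of_le_of_card_le (sup_le (zpowers_le.mpr hk) le_normalizer) (by
        rw [card_sup_of_disjoint (zpowers_le.mpr hk) (eq_bot_iff.mpr fun x hx =>
          Invol.eq_one_of_odd_of_mem h.top.isPGroup hx.2
          (ho.of_dvd_nat (orderOf_dvd_of_mem_zpowers hx.1))), h.card_B, h.card_T,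
          Nat.card_zpowers, h3]
        norm_num)]
      refine sup_le (zpowers_le.mpr (M.inv_mem_iff.mp ?_))
        (sup_le (h.symm.le_of hs hs' g5 (inf_comm P L ▸ g9)) (h.le_of ht ht' g6 g9))
      rw [← w1]
      exact mul_mem (mul_mem (mul_mem (mul_mem (mul_mem g5 g4) g5) (mul_mem g3 g4)) g5) g4
    have g10 := h.symm.norm_le_of hs hs' g5 (sup_comm P L ▸ hB)
    obtain ⟨a, ha, m, hm, b, hb, rfl⟩ := h.col_of_eppo hE g
    exact mul_mem (mul_mem (g10 ha) (h.norm_le_of ht ht' g6 hB hm)) (g10 hb)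

end CfsgLib.Cit
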