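import Cfsg.Agent.Lib.CIT.Main
import Cfsg.Agent.Lib.CIT.BigId
import Cfsg.Agent.Lib.GW.PslA

/-!
# Groups with elements of prime power order: `PSL₂(q)` and `Sz(q)`
-/

set_option autoImplicit false

namespace CfsgLib.Cit

open Subgroup Matrix MatrixGroups H5 BSW Cfsg.Lie Suz

theorem exists_unique_prime (n : ℕ) :
    ∃ a, ∀ r : ℕ, r.Prime → r ≠ 2 → r ∣ n → (∃ j, n ∣ 2 * r ^ j) → r = a := by
  by_cases h : ∃ r : ℕ, r.Prime ∧ ∃ j, n ∣ 2 * r ^ j ∧ r ≠ 2 ∧ r ∣ n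
  · obtain ⟨a, ha, j, h1, -⟩ := h
    refine ⟨a, fun r hr h2 h3 _ => ?_⟩
    rcases hr.dvd_mul.mp (h3.trans h1) with e | e
    · exact absurd ((Nat.prime_dvd_prime_iff_eq hr Nat.prime_two).mp e) h2
    · exact (Nat.prime_dvd_prime_iff_eq hr ha).mp (hr.dvd_of_dvd_pow e)
  · exact ⟨0, fun r hr h2 h3 ⟨j, h4⟩ => (h ⟨r, hr, j, h4, h2, h3⟩).elim⟩

theorem eppo_psl {F : Type*} [Field F] [Finite F]
    (h : Eppo (ProjectiveSpecialLinearGroup (Fin 2) F)) : ∃ a b, ∀ r : ℕ, r.Prime →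
      r ∣ Nat.card (ProjectiveSpecialLinearGroup (Fin 2) F) → r = 2 ∨ r = a ∨ r = b := by
  obtain ⟨p, hp⟩ := CharP.exists F
  haveI := Fintype.ofFinite F
  obtain ⟨n, hp', hn⟩ := FiniteField.card F p
  rw [← Nat.card_eq_fintype_card] at hn
  have key : ∀ r : ℕ, r.Prime → r ∣ Nat.card (ProjectiveSpecialLinearGroup (Fin 2) F) → r ≠ 2 →
      r ≠ p → ∃ m, (m = Nat.card F - 1 ∨ m = Nat.card F + 1) ∧ r ∣ m ∧ ∃ j, m ∣ 2 * r ^ j := by
    intro r hr h1 h2 h3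
    haveI := Fact.mk hr
    obtain ⟨g, hg⟩ := exists_prime_orderOf_dvd_card' r h1
    obtain ⟨X, rfl, hX⟩ := GW.PA.exists_odd_lift (hr.odd_of_ne_two h2) (hg ▸ pow_orderOf_eq_one g)
    have h4 : orderOf X = r := orderOf_eq_prime hX (by rintro rfl; exact hr.one_lt.ne (by simpa using hg))
    obtain ⟨hc, h5⟩ := SL2_centralizer (x := X) fun e => by
      have := orderOf_dvd_of_pow_eq_one ((pow_mul X 2 p).trans (SL2_pow_of_trace_sq e))
      rw [h4] at this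
      exact (hr.dvd_mul.mp this).elim
        (fun e => h2 ((Nat.prime_dvd_prime_iff_eq hr Nat.prime_two).mp e))
        fun e => h3 ((Nat.prime_dvd_prime_iff_eq hr hp').mp e)
    have hXc : X ∈ centralizer ({X} : Set SL(2, F)) := mem_centralizer_singleton_iff.mpr rfl
    refine ⟨_, h5, h4 ▸ orderOf_dvd_natCard _ hXc, ?_⟩
    obtain ⟨y, hy⟩ := hc.exists_generator
    obtain ⟨i, hi⟩ := hy ⟨X, hXc⟩
    have h6 : r ∣ orderOf (piP F y) := by
      rw [← hg]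
      exact orderOf_dvd_of_mem_zpowers ⟨i, (map_zpow _ _ _).symm.trans (congrArg (piP F ·.1) hi)⟩
    obtain ⟨s, j, hs, -, e⟩ := (isPrimePow_nat_iff _).mp (h (piP F y) fun e => by
      rw [e, orderOf_one] at h6; exact hr.not_dvd_one h6)
    rw [← e] at h6
    obtain rfl := (Nat.prime_dvd_prime_iff_eq hr hs).mp (hr.dvd_of_dvd_pow h6)
    refine ⟨j, ?_⟩
    rw [← orderOf_eq_card_of_forall_mem_zpowers hy, ← orderOf_coe, orderOf_dvd_iff_pow_eq_one,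
      mul_comm, pow_mul]
    exact SL2_sq_eq_one_of_mem_center ((QuotientGroup.eq_one_iff _).mp
      ((map_pow (piP F) _ _).trans (e ▸ pow_orderOf_eq_one _)))
  obtain ⟨a, ha⟩ := exists_unique_prime (Nat.card F - 1)
  obtain ⟨b, hb⟩ := exists_unique_prime (Nat.card F + 1)
  by_cases h2 : p = 2
  · refine ⟨a, b, fun r hr h1 => or_iff_not_imp_left.mpr fun h3 => ?_⟩
    obtain ⟨m, rfl | rfl, h4, h5⟩ := key r hr h1 h3 (h2 ▸ h3)
    exacts [Or.inl (ha r hr h3 h4 h5), Or.inr (hb r hr h3 h4 h5)]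
  have h3 : Odd (Nat.card F) := hn ▸ (hp'.odd_of_ne_two h2).pow
  have h4 : ∀ {r m j : ℕ}, r.Prime → r ≠ 2 → 4 ∣ m → ¬ m ∣ 2 * r ^ j := fun {r m j} hr h4 h5 h6 => by
    have h7 := Nat.odd_iff.mp ((hr.odd_of_ne_two h4).pow (n := j))
    have h8 := h5.trans h6
    omega
  rw [Nat.odd_iff] at h3
  by_cases h5 : 4 ∣ Nat.card F + 1
  · refine ⟨a, p, fun r hr h1 => or_iff_not_imp_left.mpr fun h6 =>
      or_iff_not_imp_right.mpr fun h7 => ?_⟩
    obtain ⟨m, rfl | rfl, h8, j, h9⟩ := key r hr h1 h6 h7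
    exacts [ha r hr h6 h8 ⟨j, h9⟩, (h4 hr h6 h5 h9).elim]
  · refine ⟨b, p, fun r hr h1 => or_iff_not_imp_left.mpr fun h6 =>
      or_iff_not_imp_right.mpr fun h7 => ?_⟩
    obtain ⟨m, rfl | rfl, h8, j, h9⟩ := key r hr h1 h6 h7
    exacts [(h4 hr h6 (by omega) h9).elim, hb r hr h6 h8 ⟨j, h9⟩]

theorem sz_exists_dvd_orderOf {F : Type*} [Field F] [Fintype F] {m a : ℕ}
    (h : Fintype.card F = 2 ^ (2 * m + 1)) (ha : 2 < a) (ho : Odd a)
    (h1 : a ∣ Fintype.card F ^ 2 + 1)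
    (h2 : a ∣ Fintype.card F + 1 + 2 ^ (m + 1) ∨ (Fintype.card F + 1) ≡ 2 ^ (m + 1) [MOD a]) :
    ∃ y : Sz F (2 ^ (m + 1)), a ∣ orderOf y := by
  obtain ⟨_, θ, hθ, he⟩ := exists_theta h
  haveI : NeZero (a : AlgebraicClosure F) := ⟨fun e => (Nat.not_even_iff_odd.mpr ho)
    (even_iff_two_dvd.mpr ((CharP.cast_eq_zero_iff _ 2 a).mp e))⟩
  obtain ⟨K, _, _, _, η, hη⟩ : ∃ (K : Type _) (_ : Field K) (_ : Algebra F K) (_ : CharP K 2)
      (η : K), IsPrimitiveRoot η a := ⟨AlgebraicClosure F, inferInstance, inferInstance,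
    inferInstance, HasEnoughRootsOfUnity.exists_primitiveRoot _ a⟩
  have h0 : η ≠ 0 := hη.ne_zero (by omega)
  have fr : ∀ (n : ℕ) (x y : K), (x + y) ^ 2 ^ n = x ^ 2 ^ n + y ^ 2 ^ n := fun n x y =>
    add_pow_char_pow x y 2 n
  set q := Fintype.card F with hq
  have h3 : (η ^ q) ^ q = η⁻¹ := by
    rw [← pow_mul, ← pow_two]
    exact eq_inv_of_mul_eq_one_left (by rw [← pow_succ]; exact (hη.pow_eq_one_iff_dvd _).mpr h1)
  have h4 : η ^ 2 ^ (m + 1) = (η ^ q * η)⁻¹ ∨ η ^ 2 ^ (m + 1) = η ^ q * η := by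
    refine h2.imp (fun e => eq_inv_of_mul_eq_one_right ?_) fun e => ?_
    · rw [← pow_succ, ← pow_add]; exact (hη.pow_eq_one_iff_dvd _).mpr e
    · rw [← pow_succ, pow_eq_pow_mod _ hη.pow_eq_one, ← e, ← pow_eq_pow_mod _ hη.pow_eq_one]
  obtain ⟨s, hs⟩ := mem_range_of_pow_card (F := F) (w := η + η⁻¹ + (η ^ q + (η ^ q)⁻¹)) (by
    rw [Nat.card_eq_fintype_card, ← hq]
    nth_rewrite 3 [h]
    rw [fr, fr, fr, ← h, inv_pow, inv_pow, h3, inv_inv]
    ring)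
  have h5 : algebraMap F K (θ.symm s) ^ 2 = (η + η⁻¹) * (η ^ q + (η ^ q)⁻¹) := by
    rw [← map_pow, ← hθ, θ.apply_symm_apply, he, map_pow, hs, fr, fr, fr, inv_pow, inv_pow,
      ← pow_mul η q, mul_comm q, pow_mul]
    rcases h4 with e | e <;> rw [e] <;>
      simp only [inv_pow, mul_pow, h3, _root_.inv_inv, mul_inv] <;> ring
  set b := θ.symm s
  have h6 : mat (eS hθ he 0 b * eW he) = !![s, b, 0, 1; b, 0, 1, 0; 0, 1, 0, 0; 1, 0, 0, 0] := by
    rw [map_mul, mat_eS, mat_eW]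
    ext i j
    fin_cases i <;> fin_cases j <;> simp [szS, szW, Matrix.mul_apply, Fin.sum_univ_four, b]
  refine ⟨eS hθ he 0 b * eW he, ?_⟩
  let f := (algebraMap F K).mapMatrix (m := Fin 4)
  let v : Fin 4 → K := ![η * (1 + η ^ 2), algebraMap F K b * η ^ 2, algebraMap F K b * η, 1 + η ^ 2]
  have h7 : f (mat (eS hθ he 0 b * eW he)) *ᵥ v = η • v := by
    have h8 : (2 : K) = 0 := CharTwo.two_eq_zero
    rw [h6]
    ext i
    fin_cases i <;> simp [f, v, mulVec, dotProduct, Fin.sum_univ_four]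
    · generalize η ^ q + (η ^ q)⁻¹ = β at hs h5
      linear_combination η * (1 + η ^ 2) * hs + η ^ 2 * h5 +
        (1 + η ^ 2 + β * η) * mul_inv_cancel₀ h0 + (1 + η ^ 2 + β * η + β * η ^ 3) * h8
    · linear_combination algebraMap F K b * η * h8
    · ring
  have h8 : ∀ n : ℕ, f (mat ((eS hθ he 0 b * eW he) ^ n)) *ᵥ v = η ^ n • v := fun n => by
    induction n with
    | zero => simp
    | succ n ih => rw [pow_succ _ n, map_mul, map_mul, ← mulVec_mulVec, h7, mulVec_smul, ih, smul_smul,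
        pow_succ' η]
  have h9 := congrFun (h8 (orderOf (eS hθ he 0 b * eW he))) 3
  rw [pow_orderOf_eq_one, map_one, map_one, one_mulVec, Pi.smul_apply, smul_eq_mul, eq_comm,
    mul_eq_right₀] at h9
  · exact (hη.pow_eq_one_iff_dvd _).mp h9
  · exact fun e => hη.pow_ne_one_of_pos_of_lt two_ne_zero ha (CharTwo.add_eq_zero.mp e).symm

theorem eppo_sz {F : Type*} [Field F] [Fintype F] {m : ℕ}
    (h : Fintype.card F = 2 ^ (2 * m + 1)) (hE : Eppo (Sz F (2 ^ (m + 1)))) : m ≤ 2 := by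
  by_contra hm
  obtain ⟨n, rfl⟩ : ∃ n, m = n + 3 := ⟨m - 3, by omega⟩
  have key : ∀ a c : ℕ, a = 2 ^ (n + 3 + 1) * c + 1 → a ≤ 4 ^ (n + 4) → 5 ∣ a →
      a ∣ Fintype.card F ^ 2 + 1 → (a ∣ Fintype.card F + 1 + 2 ^ (n + 3 + 1) ∨
        (Fintype.card F + 1) ≡ 2 ^ (n + 3 + 1) [MOD a]) → False := by
    intro a c h1 h2 h3 h4 h5
    have h6 : Odd a := by rw [h1, pow_succ', mul_assoc]; exact odd_two_mul_add_one _
    obtain ⟨y, hy⟩ := sz_exists_dvd_orderOf h (by omega) h6 h4 h5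
    obtain ⟨p, j, hp, -, e⟩ := (isPrimePow_nat_iff _).mp (hE y fun e => by
      rw [e, orderOf_one] at hy; exact absurd (h3.trans hy) (by norm_num))
    rw [← e] at hy
    obtain rfl := (Nat.prime_dvd_prime_iff_eq Nat.prime_five hp).mp
      (Nat.prime_five.dvd_of_dvd_pow (h3.trans hy))
    obtain ⟨k, -, rfl⟩ := (Nat.dvd_prime_pow hp).mp hy
    have h7 : 2 ^ (n + 2) ∣ k := by
      rw [← ZMod.orderOf_five, orderOf_dvd_iff_pow_eq_one]
      have := congrArg (Nat.cast : ℕ → ZMod (2 ^ (n + 2 + 2))) h1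
      rw [Nat.cast_add, Nat.cast_mul, ZMod.natCast_self, zero_mul, zero_add] at this
      exact_mod_cast this
    have h8 : n + 4 ≤ k := by
      have := Nat.le_of_dvd (Nat.pos_of_ne_zero (by rintro rfl; omega)) h7
      have h9 := Nat.lt_two_pow_self (n := n)
      rw [pow_add] at this
      omega
    exact h2.not_gt ((Nat.pow_lt_pow_left (by norm_num) (by omega)).trans_le
      (Nat.pow_le_pow_right (by norm_num) h8))
  have e1 : Fintype.card F = 128 * (2 ^ n) ^ 2 := by rw [h]; ring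
  have e2 : 2 ^ (n + 3 + 1) = 16 * 2 ^ n := by ring
  have e3 : 4 ^ (n + 4) = 256 * (2 ^ n) ^ 2 := by
    rw [show 4 = 2 ^ 2 from rfl, ← pow_mul]; ring
  have h5 : 5 ∣ Fintype.card F ^ 2 + 1 := by
    rw [h, ← pow_mul, mul_comm, pow_mul]
    have := Odd.nat_add_dvd_pow_add_pow (2 ^ 2) 1 (odd_two_mul_add_one (n + 3))
    rwa [one_pow] at this
  rw [e1, e2, e3] at key
  rw [e1] at h5
  obtain ⟨x, hx⟩ : ∃ x, 2 ^ n = x + 1 := ⟨_, (Nat.succ_pred_eq_of_pos (Nat.two_pow_pos n)).symm⟩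
  rw [hx] at key h5
  have e4 : (128 * (x + 1) ^ 2) ^ 2 + 1 =
      (16 * (x + 1) * (8 * x + 9) + 1) * (16 * (x + 1) * (8 * x + 7) + 1) := by ring
  rcases Nat.prime_five.dvd_mul.mp (e4 ▸ h5) with h6 | h6
  · exact key _ _ rfl (by nlinarith) h6 (e4 ▸ dvd_mul_right _ _) (Or.inl (dvd_of_eq (by ring)))
  · exact key _ _ rfl (by nlinarith) h6 (e4 ▸ dvd_mul_left _ _) (Or.inr (by
      rw [show 128 * (x + 1) ^ 2 + 1 = 16 * (x + 1) * (8 * x + 7) + 1 + 16 * (x + 1) by ring]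
      exact Nat.add_modEq_left))

end CfsgLib.Cit
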